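import Groth.Agent.Ega4fib.H112.FibreFormula
import Groth.Agent.CycB.LocQuot

/-!
# The local ring modulo the prime of the generic point
-/

set_option autoImplicit false
universe u
open CategoryTheory AlgebraicGeometry
open Groth.Agent.CycB.RelDim Groth.Agent.CycB.LocQuot

namespace Groth.Agent.Ega4fib.H112.DimGen

variable {X Y : Scheme.{u}}

theorem ringKrullDim_quotient_of_le_nilradical {R : Type*} [CommRing R] (I : Ideal R)
    (hI : ∀ P : PrimeSpectrum R, I ≤ P.asIdeal) : ringKrullDim (R ⧸ I) = ringKrullDim R := by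
  rw [ringKrullDim_quotient]
  have h : PrimeSpectrum.zeroLocus (I : Set R) = Set.univ := by
    rw [Set.eq_univ_iff_forall]
    exact fun P => hI P
  rw [h, ringKrullDim]
  exact Order.krullDim_eq_of_orderIso OrderIso.Set.univ

/-- If `ξ` is a generization of all generizations of `x`, then `O_{X,x}` modulo the prime of `ξ`
has the dimension of `O_{X,x}`. -/
theorem ringKrullDim_locQuot_of_forall {x ξ : X} (h : ξ ⤳ x)
    (hξ : ∀ z : X, z ⤳ x → ξ ⤳ z) :
    ringKrullDim (Cyc.LocQuot x ξ h) = ringKrullDim (X.presheaf.stalk x) := by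
  refine ringKrullDim_quotient_of_le_nilradical _ fun P => ?_
  rw [← primeOf_asIdeal h]
  change primeOf h ≤ P
  rw [← primeOf_ptOf P, primeOf_le_iff]
  exact hξ _ (ptOf_specializes P)

theorem ringKrullDim_locQuot_genericPoint [IrreducibleSpace X] (x : X)
    (h : genericPoint X ⤳ x) :
    ringKrullDim (Cyc.LocQuot x (genericPoint X) h) = ringKrullDim (X.presheaf.stalk x) :=
  ringKrullDim_locQuot_of_forall h fun z _ => genericPoint_specializes z

end Groth.Agent.Ega4fib.H112.DimGen
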