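import Groth.Agent.VarietyB.FibreGeneric
import Groth.Agent.VarietyB.DimSch
import Groth.Agent.VarietyA.LocDim
import Groth.Agent.CycB.RelDim2
import Mathlib.AlgebraicGeometry.Morphisms.UnderlyingMap

/-!
# Dimension of fibres and transcendence degrees

* `fibreDimAt_eq_add`: `dim_x X_{f x} = dim O_{X_{f x}, x} + trdeg κ(x)/κ(f x)`.
* `topologicalKrullDim_fiber_genericPoint`: dimension of the generic fibre of an irreducible scheme.
-/

set_option autoImplicit false
universe u
open CategoryTheory AlgebraicGeometry
open Groth.Agent.CycB.RelDim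

namespace Groth.Agent.Ega4fib.H112.FibreFormula

open Groth.Agent.VarietyB

variable {X Y : Scheme.{u}}

/-- The transcendence degree of the residue field of a point of a fibre. -/
theorem trd_fiber_eq (f : X ⟶ Y) [LocallyOfFiniteType f] (y : Y) (z : f.fiber y) (n : ℕ)
    (hn : rtd f (f.fiberι y z) = n) :
    letI : (f.fiber y).Over (Spec (CommRingCat.of (Y.residueField y))) :=
      ⟨f.fiberToSpecResidueField y⟩
    ResMap.trd (Y.residueField y) (f.fiber y) z = n ∧
      DimSch.trd (Y.residueField y) (f.fiber y) z = n := by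
  let _ : (f.fiber y).Over (Spec (CommRingCat.of (Y.residueField y))) :=
    ⟨f.fiberToSpecResidueField y⟩
  have hft : LocallyOfFiniteType ((f.fiber y) ↘ (Spec (CommRingCat.of (Y.residueField y)))) :=
    inferInstanceAs (LocallyOfFiniteType (Limits.pullback.snd f (Y.fromSpecResidueField y)))
  obtain ⟨m, hm, hm'⟩ := exists_dim_closure_fiber f y z
  have hmn : m = n := by
    rw [hm] at hn
    exact_mod_cast hn
  subst hmn
  have h1 := (FibreGeneric.dim_closure_eq_iff (Y.residueField y) (f.fiber y) z m).mp hm'
  exact ⟨h1, DimSch.trd_eq_of_trdeg_eq (Y.residueField y) h1⟩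

/-- `dim_x X_{f x} = dim O_{X_{f x}, x} + trdeg κ(x)/κ(f x)` for `f` locally of finite type. -/
theorem fibreDimAt_eq_add (f : X ⟶ Y) [LocallyOfFiniteType f] (x : X) (n : ℕ)
    (hn : rtd f x = n) :
    FlatMor.fibreDimAt f x =
      ringKrullDim ((f.fiber (f x)).presheaf.stalk (f.asFiber x)) + n := by
  let _ : (f.fiber (f x)).Over (Spec (CommRingCat.of (Y.residueField (f x)))) :=
    ⟨f.fiberToSpecResidueField (f x)⟩
  have hft : LocallyOfFiniteType
      ((f.fiber (f x)) ↘ (Spec (CommRingCat.of (Y.residueField (f x))))) :=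
    inferInstanceAs (LocallyOfFiniteType (Limits.pullback.snd f (Y.fromSpecResidueField (f x))))
  have h2 := (trd_fiber_eq f (f x) (f.asFiber x) n (by rw [Scheme.Hom.fiberι_asFiber]; exact hn)).2
  have h3 := DimSch.localDim_eq (Y.residueField (f x)) (f.asFiber x)
  rw [h2] at h3
  exact h3

/-- The version with `Cardinal.toNat`. -/
theorem fibreDimAt_eq_add_toNat (f : X ⟶ Y) [LocallyOfFiniteType f] (x : X) :
    FlatMor.fibreDimAt f x =
      ringKrullDim ((f.fiber (f x)).presheaf.stalk (f.asFiber x)) +
        (Cardinal.toNat (rtd f x) : ℕ) :=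
  fibreDimAt_eq_add f x _ (Cardinal.cast_toNat_of_lt_aleph0 (rtd_lt_aleph0 f x)).symm

/-- The dimension of the fibre of an irreducible scheme through its generic point. -/
theorem topologicalKrullDim_fiber_map_genericPoint [IrreducibleSpace X] (f : X ⟶ Y)
    [LocallyOfFiniteType f] (n : ℕ) (hn : rtd f (genericPoint X) = n) :
    topologicalKrullDim ↥(f.fiber (f (genericPoint X))) = n := by
  let y := f (genericPoint X)
  let _ : (f.fiber y).Over (Spec (CommRingCat.of (Y.residueField y))) :=
    ⟨f.fiberToSpecResidueField y⟩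
  have hft : LocallyOfFiniteType ((f.fiber y) ↘ (Spec (CommRingCat.of (Y.residueField y)))) :=
    inferInstanceAs (LocallyOfFiniteType (Limits.pullback.snd f (Y.fromSpecResidueField y)))
  have : IrreducibleSpace (f.fiber y) := FibreGeneric.irreducibleSpace_fiber f
  refine FibreGeneric.dim_eq_trd (Y.residueField y) (f.fiber y) n ?_
  have h4 : genericPoint (f.fiber y) = f.asFiber (genericPoint X) :=
    FibreGeneric.genericPoint_fiber f
  rw [h4]
  exact (trd_fiber_eq f y (f.asFiber (genericPoint X)) n
    (by rw [Scheme.Hom.fiberι_asFiber]; exact hn)).1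

/-- A dominant morphism maps the generic point to the generic point. -/
theorem map_genericPoint [IrreducibleSpace X] [IrreducibleSpace Y] (f : X ⟶ Y)
    [IsDominant f] : f (genericPoint X) = genericPoint Y := by
  have h := (genericPoint_spec X).image f.continuous
  rw [Set.image_univ, f.denseRange.closure_eq] at h
  exact h.eq (genericPoint_spec Y)

/-- The dimension of the generic fibre of a dominant morphism of irreducible schemes. -/
theorem topologicalKrullDim_fiber_genericPoint [IrreducibleSpace X] [IrreducibleSpace Y]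
    (f : X ⟶ Y) [LocallyOfFiniteType f] [IsDominant f] (n : ℕ)
    (hn : rtd f (genericPoint X) = n) :
    topologicalKrullDim ↥(f.fiber (genericPoint Y)) = n := by
  rw [← map_genericPoint f]
  exact topologicalKrullDim_fiber_map_genericPoint f n hn

end Groth.Agent.Ega4fib.H112.FibreFormula
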